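import Cfsg.Agent.CharBasics.ItoConverse
import Cfsg.Agent.CharBasics.Garrison
import Cfsg.Agent.PCore.PConstrained

/-!
# The derived length of a Sylow subgroup and the number of characters of degree divisible by `p`
-/

set_option autoImplicit false
set_option linter.unusedSectionVars false
set_option linter.style.haveILetI false

namespace CfsgLib.SingularCount

open Cfsg CfsgLib.CharBasics
open scoped commutatorElement

universe u

/-- The number of irreducible characters of degree divisible by `p`. -/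
noncomputable def nsing (p : ℕ) (G : Type u) [Group G] : ℕ :=
  Nat.card {χ : IrrCharacter G // p ∣ charDegree (χ : G → ℂ)}

variable {p : ℕ} {G : Type u} [Group G] [Finite G]

theorem nsing_quotient (N : Subgroup G) [N.Normal] : nsing p (G ⧸ N) ≤ nsing p G ∧
    ((∃ χ : IrrCharacter G, p ∣ charDegree (χ : G → ℂ) ∧ ∃ a ∈ N, (χ : G → ℂ) a ≠ (χ : G → ℂ) 1) →
      nsing p (G ⧸ N) < nsing p G) := by
  classical
  haveI := finite_irrCharacter (G := G)
  haveI := finite_irrCharacter (G := G ⧸ N)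
  haveI := Fintype.ofFinite (IrrCharacter G)
  haveI := Fintype.ofFinite (IrrCharacter (G ⧸ N))
  let f : {ψ : IrrCharacter (G ⧸ N) // p ∣ charDegree (ψ : G ⧸ N → ℂ)} →
      {χ : IrrCharacter G // p ∣ charDegree (χ : G → ℂ)} := fun ψ =>
    ⟨⟨fun x => (ψ.1 : G ⧸ N → ℂ) (QuotientGroup.mk' N x),
      Clifford.isIrrCharacter_comp ψ.1.2 _ (QuotientGroup.mk'_surjective N)⟩, by simpa [charDegree] using ψ.2⟩
  have hf : Function.Injective f := fun ψ ψ' h => by
    refine Subtype.ext (Subtype.ext (funext fun z => ?_))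
    obtain ⟨x, rfl⟩ := QuotientGroup.mk'_surjective N z
    exact congrFun (congrArg Subtype.val (congrArg Subtype.val h)) x
  refine ⟨?_, fun ⟨χ, hχ, a, ha, hne⟩ => ?_⟩
  · exact Nat.card_le_card_of_injective f hf
  · unfold nsing
    rw [Nat.card_eq_fintype_card, Nat.card_eq_fintype_card]
    refine Fintype.card_lt_of_injective_of_notMem f hf (b := ⟨χ, hχ⟩) fun ⟨ψ, hψ⟩ => hne ?_
    rw [← show _ = (χ : G → ℂ) from congrArg Subtype.val (congrArg Subtype.val hψ)]
    show (ψ.1 : G ⧸ N → ℂ) (QuotientGroup.mk' N a) = (ψ.1 : G ⧸ N → ℂ) (QuotientGroup.mk' N 1)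
    rw [map_one, QuotientGroup.mk'_apply, (QuotientGroup.eq_one_iff a).2 ha]

theorem exists_over_apply_ne (N : Subgroup G) [N.Normal] (θ : IrrCharacter N) {a : N}
    (ha : (θ : N → ℂ) a ≠ (θ : N → ℂ) 1) :
    ∃ χ : IrrCharacter G, charDegree (θ : N → ℂ) ∣ charDegree (χ : G → ℂ) ∧ (χ : G → ℂ) a ≠ (χ : G → ℂ) 1 := by
  classical
  haveI := Fintype.ofFinite G
  haveI := Fintype.ofFinite N
  obtain ⟨χ, e, he, hd, hin⟩ := ItoConverse.exists_over N θ
  refine ⟨χ, ⟨e * (Clifford.inertia (θ : N → ℂ)).index, by rw [hd]; ring⟩, fun heq => ha ?_⟩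
  have hin' := hin
  obtain ⟨r, ψ, hψ, hsum⟩ := exists_decomp (isCharacter_restrict (isCharacter_of_irr χ.2) N)
  obtain ⟨i, hi⟩ : ∃ i, ψ i = (θ : N → ℂ) := by
    by_contra hno
    push Not at hno
    have h0 : classInner (fun n : N => (χ : G → ℂ) n) (θ : N → ℂ) = 0 := by
      rw [hsum, classInner_sum_left, Finset.sum_eq_zero]
      exact fun i _ => classInner_ne (hψ i) θ.2 (hno i)
    rw [hin'] at h0
    exact Nat.cast_ne_zero.2 he.ne' h0
  rw [← hi]
  refine Garrison.kernel_of_sum ψ hψ ?_ i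
  have h1 := congrFun hsum a
  have h2 := congrFun hsum 1
  simp only [Finset.sum_apply] at h1 h2
  rw [← h1, ← h2]
  simpa using heq

theorem derivedSeries_le_of_quotient [Fact p.Prime] (N : Subgroup G) [N.Normal] (P : Sylow p G) {j : ℕ}
    (h : ∀ Q : Sylow p (G ⧸ N), derivedSeries ↥(Q : Subgroup (G ⧸ N)) j = ⊥) {x : ↥(P : Subgroup G)}
    (hx : x ∈ derivedSeries ↥(P : Subgroup G) j) : (x : G) ∈ N := by
  set f : ↥(P : Subgroup G) →* G ⧸ N := (QuotientGroup.mk' N).comp (P : Subgroup G).subtype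
  let Q : Sylow p (G ⧸ N) := P.mapSurjective (QuotientGroup.mk'_surjective N)
  let g : ↥(P : Subgroup G) →* ↥(Q : Subgroup (G ⧸ N)) :=
    (QuotientGroup.mk' N).subgroupMap (P : Subgroup G)
  have h1 : g x ∈ derivedSeries ↥(Q : Subgroup (G ⧸ N)) j :=
    map_derivedSeries_le_derivedSeries g j ⟨x, hx, rfl⟩
  rw [h Q, Subgroup.mem_bot] at h1
  exact (QuotientGroup.eq_one_iff (x : G)).1 (congrArg Subtype.val h1)

theorem derivedSeries_succ_eq_bot [Fact p.Prime] (N : Subgroup G) [N.Normal] (P : Sylow p G) {j : ℕ}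
    (h : ∀ Q : Sylow p (G ⧸ N), derivedSeries ↥(Q : Subgroup (G ⧸ N)) j = ⊥)
    (hab : ∀ a ∈ N, ∀ b ∈ N, a * b = b * a) : derivedSeries ↥(P : Subgroup G) (j + 1) = ⊥ := by
  rw [derivedSeries_succ, Subgroup.commutator_eq_bot_iff_le_centralizer]
  intro x hx
  refine Subgroup.mem_centralizer_iff.2 fun y hy => Subtype.ext ?_
  exact hab _ (derivedSeries_le_of_quotient N P h hy) _ (derivedSeries_le_of_quotient N P h hx)

/-- In the quotient by the `p`-core some character of degree divisible by `p` sees the `p'`-core. -/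
theorem exists_sees_pPrimeCore [Fact p.Prime] (hs : IsPSolvable p G) (hO : pCore p G = ⊥) (hpG : p ∣ Nat.card G) :
    ∃ χ : IrrCharacter G, p ∣ charDegree (χ : G → ℂ) ∧ ∃ a ∈ pPrimeCore p G, (χ : G → ℂ) a ≠ (χ : G → ℂ) 1 := by
  classical
  haveI := Fintype.ofFinite G
  set K := pPrimeCore p G with hKdef
  haveI : K.Normal := pPrimeCore_normal p G
  have hKp : ¬ p ∣ Nat.card K := PCore.not_dvd_card_pPrimeCore p G
  have hKT : K ≠ ⊤ := fun h => hKp (by rw [h, Subgroup.card_top]; exact hpG)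
  haveI : Nontrivial (G ⧸ K) := QuotientGroup.nontrivial_iff.2 hKT
  have hPb : pCore p (G ⧸ K) ≠ ⊥ :=
    (PCore.cores_ne_bot (PCore.isPSolvable_quotient hs K)).resolve_right (fun h => h PCore.pPrimeCore_quotient)
  set Pb := pCore p (G ⧸ K) with hPbdef
  haveI : Pb.Normal := pCore_normal p _
  set Z := (Subgroup.center Pb).map Pb.subtype with hZdef
  have hPbp : IsPGroup p Pb := PCore.isPGroup_pCore p _
  haveI : Nontrivial Pb := Pb.nontrivial_iff_ne_bot.2 hPb
  have hZ0 : Z ≠ ⊥ := fun h => by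
    haveI := hPbp.center_nontrivial
    exact (Subgroup.center Pb).nontrivial_iff_ne_bot.1 inferInstance
      ((Subgroup.map_eq_bot_iff_of_injective _ Subtype.val_injective).1 h)
  haveI : Z.Normal := ConjAct.normal_of_characteristic_of_normal
  have hZp : IsPGroup p Z := hPbp.to_le (Subgroup.map_subtype_le _)
  set R := Z.comap (QuotientGroup.mk' K) with hRdef
  haveI : R.Normal := inferInstance
  have hKR : K ≤ R := fun x hx => by
    rw [hRdef, Subgroup.mem_comap, QuotientGroup.mk'_apply, (QuotientGroup.eq_one_iff x).2 hx]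
    exact one_mem _
  by_contra hno
  push Not at hno
  obtain ⟨Q, hQn, -, hQp, hQi⟩ := ItoConverse.normal_abelian_sylow p R (PCore.isPSolvable_subgroup hs R)
    (fun θ hd => by
      by_cases hKθ : ∀ a : R, (a : G) ∈ K → (θ : R → ℂ) a = (θ : R → ℂ) 1
      · have hcom : ∀ x y : R, ((⁅x, y⁆ : R) : G) ∈ K := fun x y => by
          obtain ⟨x', hx', hxe⟩ := x.2
          obtain ⟨y', hy', hye⟩ := y.2
          have hc := congrArg Subtype.val (Subgroup.mem_center_iff.1 hy' x')
          rw [← QuotientGroup.eq_one_iff]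
          show QuotientGroup.mk' K ((⁅x, y⁆ : R) : G) = 1
          show QuotientGroup.mk' K ⁅(x : G), (y : G)⁆ = 1
          rw [map_commutatorElement, commutatorElement_eq_one_iff_mul_comm, ← hxe, ← hye]
          exact hc
        have hle : commutator R ≤ K.subgroupOf R := by
          rw [commutator_def, Subgroup.commutator_le]
          exact fun x _ y _ => hcom x y
        have hne1 : charDegree (θ : R → ℂ) ≠ 1 := fun h => (Fact.out : p.Prime).not_dvd_one (h ▸ hd)
        obtain ⟨c, hc, hcne⟩ := (GaloisDegree.nonlinear_iff θ.2).1 hne1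
        exact hcne (hKθ c (hle hc))
      · push Not at hKθ
        obtain ⟨a, haK, hne⟩ := hKθ
        obtain ⟨χ, hdvd, hχa⟩ := exists_over_apply_ne R θ hne
        exact hχa (hno χ (hd.trans hdvd) a haK))
  have h1 : Q.map R.subtype ≤ pCore p G :=
    (Subgroup.map_mono (PCore.le_pCore hQn hQp)).trans ((PCore.map_pCore_normal R).le.trans inf_le_left)
  rw [hO, le_bot_iff, Subgroup.map_eq_bot_iff_of_injective _ R.subtype_injective] at h1
  rw [h1, Subgroup.index_bot, PCore.card_comap_mk' K Z] at hQi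
  obtain ⟨k, hk⟩ := hZp.exists_card_eq
  rcases Nat.eq_zero_or_pos k with rfl | hk0
  · exact hZ0 (Subgroup.card_eq_one.1 (by rw [hk, pow_zero]))
  · exact hQi (dvd_mul_of_dvd_right (hk ▸ dvd_pow_self p hk0.ne') _)

theorem exists_nonlinear_sees (M : Subgroup G) [M.Normal] [Fact p.Prime] (hMp : IsPGroup p M) {a : M}
    (ha : a ∈ commutator M) (ha1 : a ≠ 1) :
    ∃ χ : IrrCharacter G, p ∣ charDegree (χ : G → ℂ) ∧ (χ : G → ℂ) a ≠ (χ : G → ℂ) 1 := by
  classical
  haveI := Fintype.ofFinite M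
  obtain ⟨θ, hθ⟩ := GaloisDegree.exists_apply_ne ha1
  have hnl : charDegree (θ : M → ℂ) ≠ 1 := fun h => hθ (GaloisDegree.apply_commutator_of_linear θ.2 h ha)
  obtain ⟨j, hj⟩ := hMp.exists_card_eq
  obtain ⟨l, -, hl⟩ := (Nat.dvd_prime_pow (Fact.out : p.Prime)).1 (hj ▸ degree_dvd θ)
  obtain ⟨χ, hdvd, hχ⟩ := exists_over_apply_ne M θ hθ
  refine ⟨χ, (hl ▸ dvd_pow_self p fun h0 => hnl (by rw [hl, h0, pow_zero])).trans hdvd, hχ⟩

theorem derivedSeries_sylow_eq_bot (p : ℕ) [Fact p.Prime] : ∀ (n : ℕ) (G : Type u) [Group G] [Finite G],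
    Nat.card G = n → IsPSolvable p G → ∀ P : Sylow p G,
      derivedSeries ↥(P : Subgroup G) (nsing p G + 1) = ⊥ := by
  intro n
  induction n using Nat.strong_induction_on with
  | _ n ih =>
  intro G _ _ hn hs P
  classical
  haveI := Fintype.ofFinite G
  have hquot : ∀ N : Subgroup G, [N.Normal] → N ≠ ⊥ → ∀ Q : Sylow p (G ⧸ N),
      derivedSeries ↥(Q : Subgroup (G ⧸ N)) (nsing p (G ⧸ N) + 1) = ⊥ := fun N _ hN0 Q => by
    refine ih _ ?_ (G ⧸ N) rfl (PCore.isPSolvable_quotient hs N) Q
    rw [← hn, Subgroup.card_eq_card_quotient_mul_card_subgroup N]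
    exact lt_mul_of_one_lt_right Nat.card_pos ((Subgroup.one_lt_card_iff_ne_bot N).2 hN0)
  by_cases hO' : pPrimeCore p G = ⊥
  swap
  · haveI : (pPrimeCore p G).Normal := pPrimeCore_normal p G
    refine eq_bot_iff.2 fun x hx => Subgroup.mem_bot.2 (Subtype.ext ?_)
    have hx' := derivedSeries_le_of_quotient (pPrimeCore p G) P (fun Q => eq_bot_iff.2 (le_trans
      (derivedSeries_antitone _ (Nat.add_le_add_right (nsing_quotient _).1 1)) (le_of_eq (hquot _ hO' Q)))) hx
    have hd : Disjoint (P : Subgroup G) (pPrimeCore p G) := by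
      obtain ⟨k, hk⟩ := P.2.exists_card_eq
      rw [disjoint_iff]
      exact Subgroup.inf_eq_bot_of_coprime (by rw [hk]; exact (PCore.pPrimeCore_coprime p G).symm.pow_left k)
    exact Subgroup.disjoint_def.1 hd x.2 hx'
  by_cases hG1 : pCore p G = ⊥
  · haveI : Subsingleton G := by
      by_contra hne
      rw [not_subsingleton_iff_nontrivial] at hne
      exact (PCore.cores_ne_bot hs).elim (fun h => h hG1) (fun h => h hO')
    exact Subgroup.eq_bot_of_subsingleton _
  haveI : (pCore p G).Normal := pCore_normal p G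
  set M := pCore p G with hMdef
  have hMp : IsPGroup p M := PCore.isPGroup_pCore p G
  by_cases hMab : ∀ a ∈ M, ∀ b ∈ M, a * b = b * a
  · -- the quotient by the core
    by_cases hpQ : p ∣ Nat.card (G ⧸ M)
    · haveI : (pPrimeCore p (G ⧸ M)).Normal := pPrimeCore_normal p _
      have hOM : pCore p (G ⧸ M) = ⊥ := PCore.pCore_quotient
      obtain ⟨χ, hχ, a, ha, hne⟩ := exists_sees_pPrimeCore (PCore.isPSolvable_quotient hs M) hOM hpQ
      have hlt := (nsing_quotient (pPrimeCore p (G ⧸ M))).2 ⟨χ, hχ, a, ha, hne⟩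
      have hle := (nsing_quotient (p := p) M).1
      have hK0 : pPrimeCore p (G ⧸ M) ≠ ⊥ := fun h => by
        rw [h, Subgroup.mem_bot] at ha
        exact hne (by rw [ha])
      have hMlt : Nat.card (G ⧸ M) < n := by
        rw [← hn, Subgroup.card_eq_card_quotient_mul_card_subgroup M]
        exact lt_mul_of_one_lt_right Nat.card_pos ((Subgroup.one_lt_card_iff_ne_bot M).2 hG1)
      have hH : ∀ Q : Sylow p (G ⧸ M), derivedSeries ↥(Q : Subgroup (G ⧸ M)) (nsing p G) = ⊥ := fun Q => by
        refine eq_bot_iff.2 fun x hx => Subgroup.mem_bot.2 (Subtype.ext ?_)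
        have hKlt : Nat.card ((G ⧸ M) ⧸ pPrimeCore p (G ⧸ M)) < n :=
          lt_of_le_of_lt (Nat.le_of_dvd Nat.card_pos (Subgroup.card_quotient_dvd_card _)) hMlt
        have hx' := derivedSeries_le_of_quotient (pPrimeCore p (G ⧸ M)) Q (fun Q' => eq_bot_iff.2 (le_trans
          (derivedSeries_antitone _ (by omega : nsing p ((G ⧸ M) ⧸ pPrimeCore p (G ⧸ M)) + 1 ≤ nsing p G))
          (le_of_eq (ih _ hKlt _ rfl (PCore.isPSolvable_quotient (PCore.isPSolvable_quotient hs M) _) Q')))) hx
        have hd : Disjoint (Q : Subgroup (G ⧸ M)) (pPrimeCore p (G ⧸ M)) := by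
          obtain ⟨k, hk⟩ := Q.2.exists_card_eq
          rw [disjoint_iff]
          exact Subgroup.inf_eq_bot_of_coprime (by
            rw [hk]; exact (PCore.pPrimeCore_coprime p (G ⧸ M)).symm.pow_left k)
        exact Subgroup.disjoint_def.1 hd x.2 hx'
      exact derivedSeries_succ_eq_bot M P hH hMab
    · have hPM : (P : Subgroup G) ≤ M := by
        intro x hx
        rw [← QuotientGroup.eq_one_iff (N := M), ← orderOf_eq_one_iff]
        obtain ⟨k, hk⟩ := IsPGroup.iff_orderOf.1 P.2 ⟨x, hx⟩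
        rw [Subgroup.orderOf_mk] at hk
        obtain ⟨i, -, hi⟩ := (Nat.dvd_prime_pow (Fact.out : p.Prime)).1
          (hk ▸ orderOf_map_dvd (QuotientGroup.mk' M) x)
        rcases Nat.eq_zero_or_pos i with rfl | hi0
        · simpa using hi
        · exact absurd ((hi ▸ dvd_pow_self p hi0.ne').trans (orderOf_dvd_natCard _)) hpQ
      refine eq_bot_iff.2 (le_trans (derivedSeries_antitone _ (Nat.le_add_left 1 _)) (le_of_eq ?_))
      rw [derivedSeries_succ, derivedSeries_zero, Subgroup.commutator_eq_bot_iff_le_centralizer]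
      intro x _
      exact Subgroup.mem_centralizer_iff.2 fun y _ => Subtype.ext (hMab _ (hPM y.2) _ (hPM x.2))
  · -- an abelian normal subgroup inside the derived group of the core
    haveI : Group.IsNilpotent M := hMp.isNilpotent
    have hex := Group.IsSolvable.solvable (G := M)
    set m := Nat.find hex with hm
    have hm2 : 2 ≤ m := by
      by_contra hcon
      refine hMab fun a ha b hb => ?_
      have h1 : derivedSeries M 1 = ⊥ :=
        eq_bot_iff.2 (le_trans (derivedSeries_antitone M (by omega : m ≤ 1)) (le_of_eq (Nat.find_spec hex)))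
      rw [derivedSeries_succ, derivedSeries_zero] at h1
      have h2 := Subgroup.commutator_mem_commutator (Subgroup.mem_top (⟨a, ha⟩ : M)) (Subgroup.mem_top (⟨b, hb⟩ : M))
      rw [h1, Subgroup.mem_bot, commutatorElement_eq_one_iff_mul_comm] at h2
      exact congrArg Subtype.val h2
    set D := derivedSeries M (m - 1) with hD
    have hD0 : D ≠ ⊥ := Nat.find_min hex (by omega)
    have hDab : ⁅D, D⁆ = ⊥ := by
      have := Nat.find_spec hex
      rwa [← hm, show m = (m - 1) + 1 by omega, derivedSeries_succ] at this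
    have hDc : D ≤ commutator M := by
      refine le_trans (derivedSeries_antitone M (by omega : 1 ≤ m - 1)) ?_
      rw [derivedSeries_succ, derivedSeries_zero, commutator_def]
    haveI : D.Characteristic := derivedSeries_characteristic M _
    set N := D.map M.subtype with hN
    haveI : N.Normal := ConjAct.normal_of_characteristic_of_normal
    obtain ⟨a, haD, ha1⟩ : ∃ a ∈ D, a ≠ 1 := by
      by_contra hcon
      push Not at hcon
      exact hD0 ((Subgroup.eq_bot_iff_forall _).2 hcon)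
    have hN0 : N ≠ ⊥ := fun h => hD0 ((Subgroup.map_eq_bot_iff_of_injective _ Subtype.val_injective).1 h)
    obtain ⟨χ, hχ, hne⟩ := exists_nonlinear_sees M hMp (hDc haD) ha1
    have hlt := (nsing_quotient N).2 ⟨χ, hχ, (a : G), ⟨a, haD, rfl⟩, hne⟩
    refine derivedSeries_succ_eq_bot N P (fun Q => eq_bot_iff.2 (le_trans
      (derivedSeries_antitone _ (by omega : nsing p (G ⧸ N) + 1 ≤ nsing p G)) (le_of_eq (hquot N hN0 Q)))) ?_
    rintro _ ⟨x, hx, rfl⟩ _ ⟨y, hy, rfl⟩
    have h2 := Subgroup.commutator_mem_commutator hx hy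
    rw [hDab, Subgroup.mem_bot, commutatorElement_eq_one_iff_mul_comm] at h2
    exact congrArg Subtype.val h2

end CfsgLib.SingularCount
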